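import Mathlib
import Cfsg.Agent.Lib.Linalg.OrthModels
import Cfsg.Agent.Lib.OrthSyl.Core
import Cfsg.Agent.Lib.OrthSyl.Wreath
import Cfsg.Agent.Lib.OrthSyl.Plane
import Cfsg.Agent.S4623

/-!
# Sylow `2`-subgroups of `Ω` for sums of the plane `x² + y²`
-/

set_option autoImplicit false
set_option linter.unusedSectionVars false

namespace Cfsg.Agent.Lib.OrthSyl.Main

open Equiv QuadraticMap Cfsg Cfsg.Agent.Lib.Linalg.OrthOrder Cfsg.Agent.Lib.OrthSyl.Core
open Cfsg.Agent.Lib.OrthSyl.Wreath
open scoped commutatorElement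

universe u v w

/-- The property of the statements: every Sylow `2`-subgroup `P` of `G'` has `x² ∈ P'`. -/
def SylComm (G : Type*) [Group G] : Prop :=
  ∀ (P : Sylow 2 (commutator G)) (x : (P : Subgroup (commutator G))),
    x ^ 2 ∈ commutator (P : Subgroup (commutator G))

theorem SylComm.of_mulEquiv {G H : Type*} [Group G] [Group H] [Finite H] (e : G ≃* H)
    (h : SylComm G) : SylComm H := by
  haveI : Fact (Nat.Prime 2) := ⟨Nat.prime_two⟩
  intro P x
  let f : commutator H →* commutator G :=
    { toFun := fun y => ⟨e.symm y.1, apply_mem_commutator e.symm.toMonoidHom y.2⟩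
      map_one' := by
        apply Subtype.ext
        simp
      map_mul' := by
        intro a b
        apply Subtype.ext
        simp }
  have hf : Function.Surjective f := by
    intro y
    refine ⟨⟨e y.1, apply_mem_commutator e.toMonoidHom y.2⟩, ?_⟩
    apply Subtype.ext
    change e.symm (e y.1) = y.1
    simp
  have hfi : Function.Injective f := by
    intro a b hab
    have h0 := congrArg Subtype.val hab
    exact Subtype.ext (e.symm.injective h0)
  let Q : Sylow 2 (commutator G) := P.mapSurjective hf
  have hQ : (Q : Subgroup (commutator G)) = (P : Subgroup (commutator H)).map f :=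
    Sylow.coe_mapSurjective hf P
  have hx : f x.1 ∈ (Q : Subgroup (commutator G)) := by
    rw [hQ]
    exact ⟨x.1, x.2, rfl⟩
  have h2 := sq_mem_commutator_of_subtype (h Q) (f x.1) hx
  rw [hQ, ← Subgroup.map_commutator] at h2
  obtain ⟨y, hy, hy2⟩ := h2
  have hy3 : y = x.1 ^ 2 := hfi (by rw [hy2, map_pow])
  rw [← Subgroup.map_subtype_commutator] at hy
  obtain ⟨z, hz, hz2⟩ := hy
  have hz3 : z = x ^ 2 := by
    apply Subtype.ext
    change (P : Subgroup (commutator H)).subtype z = x.1 ^ 2
    rw [hz2, hy3]
  rwa [hz3] at hz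

section Congr

variable {F : Type u} [Field F]
variable {V₁ : Type v} {V₂ : Type w} [AddCommGroup V₁] [AddCommGroup V₂] [Module F V₁] [Module F V₂]
variable {Q₁ : QuadraticForm F V₁} {Q₂ : QuadraticForm F V₂}

/-- Isometric forms have isomorphic isometry groups. -/
noncomputable def orthCongr (L : Q₁.IsometryEquiv Q₂) : orthGroup Q₁ ≃* orthGroup Q₂ where
  toFun g := ⟨L.symm.toLinearEquiv.trans (g.1.trans L.toLinearEquiv), fun v => by
    change Q₂ (L (g.1 (L.symm v))) = Q₂ v
    rw [L.map_app, g.2]
    exact L.symm.map_app v⟩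
  invFun g := ⟨L.toLinearEquiv.trans (g.1.trans L.symm.toLinearEquiv), fun v => by
    change Q₁ (L.symm (g.1 (L v))) = Q₁ v
    rw [L.symm.map_app, g.2]
    exact L.map_app v⟩
  left_inv g := by
    apply Subtype.ext
    apply LinearEquiv.ext
    intro v
    change L.symm (L (g.1 (L.symm (L v)))) = g.1 v
    rw [show L.symm (L v) = v from L.toLinearEquiv.symm_apply_apply v]
    exact L.toLinearEquiv.symm_apply_apply _
  right_inv g := by
    apply Subtype.ext
    apply LinearEquiv.ext
    intro v
    change L (L.symm (g.1 (L (L.symm v)))) = g.1 v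
    rw [show L (L.symm v) = v from L.toLinearEquiv.apply_symm_apply v]
    exact L.toLinearEquiv.apply_symm_apply _
  map_mul' a b := by
    apply Subtype.ext
    apply LinearEquiv.ext
    intro v
    change L (a.1 (b.1 (L.symm v))) = L (a.1 (L.symm (L (b.1 (L.symm v)))))
    rw [show L.symm (L (b.1 (L.symm v))) = b.1 (L.symm v) from L.toLinearEquiv.symm_apply_apply _]

variable {ι : Type} [Fintype ι] [DecidableEq ι]

/-- Matrices against linear automorphisms. -/
noncomputable def glEquiv (ι : Type) [Fintype ι] [DecidableEq ι] (F : Type u) [Field F] :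
    Matrix.GeneralLinearGroup ι F ≃* ((ι → F) ≃ₗ[F] (ι → F)) :=
  Matrix.GeneralLinearGroup.toLin.trans (LinearMap.GeneralLinearGroup.generalLinearEquiv F (ι → F))

theorem glEquiv_apply (g : Matrix.GeneralLinearGroup ι F) (x : ι → F) :
    glEquiv ι F g x = (g : Matrix ι ι F).mulVec x := rfl

/-- The matrix isometry group against `orthGroup`. -/
noncomputable def isomOrth (Q : QuadraticForm F (ι → F)) : isometryGroup F (⇑Q) ≃* orthGroup Q where
  toFun g := ⟨glEquiv ι F g.1, fun v => by
    rw [glEquiv_apply]
    exact g.2 v 0⟩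
  invFun g := ⟨(glEquiv ι F).symm g.1, fun u _ => by
    have h := g.2 u
    have h2 : glEquiv ι F ((glEquiv ι F).symm g.1) u = g.1 u := by
      rw [MulEquiv.apply_symm_apply]
    rw [glEquiv_apply] at h2
    change Q (((glEquiv ι F).symm g.1 : Matrix.GeneralLinearGroup ι F).1.mulVec u) = Q u
    rw [h2, h]⟩
  left_inv g := by
    apply Subtype.ext
    exact (glEquiv ι F).symm_apply_apply g.1
  right_inv g := by
    apply Subtype.ext
    exact (glEquiv ι F).apply_symm_apply g.1
  map_mul' a b := by
    apply Subtype.ext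
    exact map_mul (glEquiv ι F) a.1 b.1

end Congr

section XForm

variable (F : Type u) [Field F]

/-- The plane `x² + y²`. -/
noncomputable def xForm : QuadraticForm F (F × F) :=
  (QuadraticMap.sq (R := F)).prod (QuadraticMap.sq (R := F))

variable {F}

theorem xForm_apply (v : F × F) : xForm F v = v.1 * v.1 + v.2 * v.2 := rfl

variable (F)

/-- The map `(x, y) ↦ (y, x)`. -/
noncomputable def swapXY : orthGroup (xForm F) :=
  ⟨LinearEquiv.prodComm F F F, fun v => by
    rw [xForm_apply, xForm_apply]
    exact add_comm _ _⟩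

variable {F}

theorem swapXY_apply (v : F × F) : (swapXY F).1 v = (v.2, v.1) := rfl

theorem swapXY_detO : (Plane.detO (xForm F) (swapXY F) : F) = -1 := by
  rw [Plane.coe_detO]
  simp [swapXY_apply]

theorem disc_xForm : Plane.disc (xForm F) = 4 := by
  simp [Plane.disc, Plane.cA, Plane.cB, Plane.cC, xForm_apply, polar]

variable {I : Type} [Fintype I] [DecidableEq I]
variable {W : Type v} [AddCommGroup W] [Module F W] (QW : QuadraticForm F W)

/-- The linear map interchanging the `x`-coordinates of two planes. -/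
noncomputable def halfSwapLin (i j : I) : ((I → F × F) × W) →ₗ[F] ((I → F × F) × W) where
  toFun v := (fun k => ((v.1 (swap i j k)).1, (v.1 k).2), v.2)
  map_add' _ _ := rfl
  map_smul' _ _ := rfl

theorem halfSwapLin_invol (i j : I) (v : (I → F × F) × W) :
    halfSwapLin (F := F) i j (halfSwapLin i j v) = v := by
  refine Prod.ext ?_ rfl
  funext k
  change ((v.1 (swap i j (swap i j k))).1, (v.1 k).2) = v.1 k
  rw [swap_apply_self]

/-- The isometry interchanging the `x`-coordinates of two planes. -/
noncomputable def halfSwap (i j : I) : orthGroup (wForm I (xForm F) QW) :=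
  ⟨LinearEquiv.ofInvolutive (halfSwapLin i j) (halfSwapLin_invol i j), fun v => by
    rw [wForm_apply, wForm_apply]
    congr 1
    change ∑ k, ((v.1 (swap i j k)).1 * (v.1 (swap i j k)).1 + (v.1 k).2 * (v.1 k).2) =
      ∑ k, ((v.1 k).1 * (v.1 k).1 + (v.1 k).2 * (v.1 k).2)
    rw [Finset.sum_add_distrib, Finset.sum_add_distrib]
    congr 1
    exact Equiv.sum_comp (swap i j) (fun k => (v.1 k).1 * (v.1 k).1)⟩

theorem halfSwap_mul_self (i j : I) : halfSwap QW i j * halfSwap QW i j = 1 := by
  apply Subtype.ext
  apply LinearEquiv.ext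
  intro v
  exact halfSwapLin_invol i j v

/-- Permutations of the planes lie in the commutator subgroup. -/
theorem permHom_mem_commutator (σ : Perm I) :
    permHom (xForm F) QW σ ∈ commutator (orthGroup (wForm I (xForm F) QW)) := by
  induction σ using Equiv.Perm.swap_induction_on with
  | one =>
    rw [map_one]
    exact one_mem _
  | swap_mul f x y hxy ih =>
    rw [map_mul]
    refine mul_mem ?_ ih
    let ρ : orthGroup (wForm I (xForm F) QW) := coordHom (xForm F) QW (fun _ => swapXY F, 1)
    have h1 : permHom (xForm F) QW (swap x y) = ⁅halfSwap QW x y, ρ⁆ := by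
      have hinv : (halfSwap QW x y)⁻¹ = halfSwap QW x y :=
        inv_eq_of_mul_eq_one_left (halfSwap_mul_self QW x y)
      have hρ : ρ * ρ = 1 := by
        apply Subtype.ext
        apply LinearEquiv.ext
        intro v
        rfl
      have hρinv : ρ⁻¹ = ρ := inv_eq_of_mul_eq_one_left hρ
      rw [commutatorElement_def, hinv, hρinv]
      apply Subtype.ext
      apply LinearEquiv.ext
      intro v
      refine Prod.ext ?_ rfl
      funext k
      change v.1 ((swap x y)⁻¹ k) = _
      rw [swap_inv]
      rfl
    rw [h1]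
    exact Subgroup.commutator_mem_commutator (Subgroup.mem_top _) (Subgroup.mem_top _)

theorem exists_three {n : ℕ} (hn : 3 ≤ n) (i : Fin n) : ∃ j k : Fin n, i ≠ j ∧ i ≠ k ∧ j ≠ k := by
  by_cases h0 : i.1 = 0
  · refine ⟨⟨1, by omega⟩, ⟨2, by omega⟩, ?_, ?_, ?_⟩ <;> simp [Fin.ext_iff] <;> omega
  · by_cases h1 : i.1 = 1
    · refine ⟨⟨0, by omega⟩, ⟨2, by omega⟩, ?_, ?_, ?_⟩ <;> simp [Fin.ext_iff] <;> omega
    · refine ⟨⟨0, by omega⟩, ⟨1, by omega⟩, ?_, ?_, ?_⟩ <;> simp [Fin.ext_iff] <;> omega

theorem finite_orth {V : Type*} [AddCommGroup V] [Module F V] [Finite V] (Q : QuadraticForm F V) :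
    Finite (orthGroup Q) := by
  haveI : Finite (V ≃ₗ[F] V) :=
    Finite.of_injective (fun g => (g : V → V)) (fun a b h => LinearEquiv.ext (congrFun h))
  infer_instance

theorem exists_det_neg_xForm : ∃ g : orthGroup (xForm F), (Plane.detO (xForm F) g : F) = -1 :=
  ⟨swapXY F, swapXY_detO⟩

/-- **The main theorem** in `orthGroup` language, three planes or more. -/
theorem sylComm_wForm [Finite F] [Finite W] (n : ℕ) (hn : 3 ≤ n) (h2 : (2 : F) ≠ 0)
    (hE : ∀ (S : Sylow 2 (orthGroup QW)) (e : (S : Subgroup (orthGroup QW))), e ^ 2 = 1)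
    (hcount : n * (Nat.card (orthGroup (xForm F))).factorization 2 +
        (Nat.card (orthGroup QW)).factorization 2 + (n.factorial).factorization 2 =
      (Nat.card (orthGroup (wForm (Fin n) (xForm F) QW))).factorization 2) :
    SylComm (orthGroup (wForm (Fin n) (xForm F) QW)) := by
  classical
  haveI : Fact (Nat.Prime 2) := ⟨Nat.prime_two⟩
  haveI := finite_orth (xForm F)
  haveI := finite_orth QW
  haveI := finite_orth (wForm (Fin n) (xForm F) QW)
  let D : Sylow 2 (orthGroup (xForm F)) := default
  let E : Sylow 2 (orthGroup QW) := default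
  let T : Sylow 2 (Perm (Fin n)) := default
  intro P' x
  have hd : Plane.disc (xForm F) ≠ 0 := by
    rw [disc_xForm]
    intro h
    apply h2
    have h4 : (2 : F) * 2 = 0 := by
      rw [← h]
      norm_num
    exact (mul_self_eq_zero.1 h4)
  have hcard : Nat.card (D : Subgroup (orthGroup (xForm F))) ^ Fintype.card (Fin n) *
      Nat.card (E : Subgroup (orthGroup QW)) * Nat.card (T : Subgroup (Perm (Fin n))) =
      2 ^ (Nat.card (orthGroup (wForm (Fin n) (xForm F) QW))).factorization 2 := by
    rw [Sylow.card_eq_multiplicity D, Sylow.card_eq_multiplicity E, Sylow.card_eq_multiplicity T,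
      ← hcount, Nat.card_eq_fintype_card (α := Perm (Fin n)), Fintype.card_perm, Fintype.card_fin,
      ← pow_mul, ← pow_add, ← pow_add, mul_comm n]
  exact main_three (c := coordHomOf (xForm F) QW D E) (π := permHom (xForm F) QW)
    (isWreath_of (xForm F) QW D E) T (Cfsg.Agent.S4623.result 2 n T default).1
    (injective_mul (I := Fin n) (xForm F) QW D E (1, 0) (by simp) (T : Subgroup (Perm (Fin n)))) hcard (permHom_mem_commutator QW)
    (Plane.sq_mem_commutator hd h2 exists_det_neg_xForm D) (hE E) (exists_three hn) P' x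

end XForm

end Cfsg.Agent.Lib.OrthSyl.Main
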